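import Mathlib
import Cfsg.Agent.Lib.CZ.Base

/-! Doubly transitive groups with a cyclic regular subgroup, cyclic root groups and cyclic
two-point stabilisers: the basic facts and the count of involutions. -/

set_option autoImplicit false

namespace H46.CZ

open Subgroup

universe u

/-- A doubly transitive group with a transitive cyclic subgroup `⟨a⟩` (with involution `u`), whose
point stabiliser is `⟨m⟩⟨d⟩` with `⟨m⟩` normal and transitive on the remaining points. -/
structure Cfg (G Ω : Type*) [Group G] [MulAction G Ω] where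
  a : G
  u : G
  m : G
  d : G
  α : Ω
  faith : ∀ g : G, (∀ x : Ω, g • x = x) → g = 1
  two : ∀ x y x' y' : Ω, x ≠ y → x' ≠ y' → ∃ g : G, g • x = x' ∧ g • y = y'
  a_tr : ∀ x y : Ω, ∃ g ∈ zpowers a, g • x = y
  u_mem : u ∈ zpowers a
  u_sq : u * u = 1
  u_ne : u ≠ 1
  m_fix : m • α = α
  m_norm : ∀ b : G, b • α = α → b * m * b⁻¹ ∈ zpowers m
  m_tr : ∀ x y : Ω, x ≠ α → y ≠ α → ∃ k ∈ zpowers m, k • x = y
  d_α : d • α = α
  d_β : d • u • α = u • α
  d_gen : ∀ g : G, g • α = α → g • u • α = u • α → g ∈ zpowers d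
  big : 2 < Nat.card Ω

theorem zpowers_fix {G Ω : Type*} [Group G] [MulAction G Ω] {g k : G} {x : Ω} (h : g • x = x)
    (hk : k ∈ zpowers g) : k • x = x :=
  (zpowers_le.2 (show g ∈ MulAction.stabilizer G x from h) hk :)

theorem conj_zpowers {G : Type*} [Group G] {m b k : G} (h : b * m * b⁻¹ ∈ zpowers m)
    (hk : k ∈ zpowers m) : b * k * b⁻¹ ∈ zpowers m := by
  obtain ⟨i, rfl⟩ := mem_zpowers_iff.1 hk
  rw [← conj_zpow]
  exact zpow_mem h i

namespace Cfg

variable {G Ω : Type*} [Group G] [MulAction G Ω] (C : Cfg G Ω)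

/-- The second point. -/
def β : Ω := C.u • C.α

include C in
theorem ext_smul {g h : G} (H : ∀ x : Ω, g • x = h • x) : g = h := by
  have := C.faith (h⁻¹ * g) fun x => by rw [mul_smul, H, inv_smul_smul]
  exact (inv_mul_eq_one.1 this).symm

theorem a_free {g : G} (hg : g ∈ zpowers C.a) {x : Ω} (h : g • x = x) : g = 1 :=
  C.faith g fun y => by
    obtain ⟨k, hk, rfl⟩ := C.a_tr x y
    rw [← mul_smul, comm_of_zpowers hg hk, mul_smul, h]

theorem u_free (x : Ω) : C.u • x ≠ x := fun h => C.u_ne (C.a_free C.u_mem h)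

theorem β_ne : C.β ≠ C.α := C.u_free _

theorem uu (x : Ω) : C.u • C.u • x = x := by rw [← mul_smul, C.u_sq, one_smul]

theorem u_β : C.u • C.β = C.α := C.uu _

theorem u_inv : C.u⁻¹ = C.u := inv_eq_of_mul_eq_one_right C.u_sq

theorem m_α {k : G} (hk : k ∈ zpowers C.m) : k • C.α = C.α := zpowers_fix C.m_fix hk

theorem m_ne {k : G} (hk : k ∈ zpowers C.m) {x : Ω} (hx : x ≠ C.α) : k • x ≠ C.α := fun h =>
  hx (by rw [← C.m_α (inv_mem hk), ← h, inv_smul_smul])

theorem m_free {g : G} (hg : g ∈ zpowers C.m) {x : Ω} (hx : x ≠ C.α) (h : g • x = x) : g = 1 :=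
  C.faith g fun y => by
    by_cases hy : y = C.α
    · rw [hy, C.m_α hg]
    obtain ⟨k, hk, rfl⟩ := C.m_tr x y hx hy
    rw [← mul_smul, comm_of_zpowers hg hk, mul_smul, h]

theorem m_eq {g k : G} (hg : g ∈ zpowers C.m) (hk : k ∈ zpowers C.m) {x : Ω} (hx : x ≠ C.α)
    (h : g • x = k • x) : g = k := by
  have := C.m_free (mul_mem (inv_mem hk) hg) hx (by rw [mul_smul, h, inv_smul_smul])
  exact (inv_mul_eq_one.1 this).symm

theorem D_α {e : G} (he : e ∈ zpowers C.d) : e • C.α = C.α := zpowers_fix C.d_α he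

theorem D_β {e : G} (he : e ∈ zpowers C.d) : e • C.β = C.β := zpowers_fix C.d_β he

theorem mem_D {e : G} (h1 : e • C.α = C.α) (h2 : e • C.β = C.β) : e ∈ zpowers C.d :=
  C.d_gen e h1 h2

theorem conj_M {b k : G} (hb : b • C.α = C.α) (hk : k ∈ zpowers C.m) :
    b * k * b⁻¹ ∈ zpowers C.m := conj_zpowers (C.m_norm b hb) hk

theorem ne_of_fix {b : G} (hb : b • C.α = C.α) {x : Ω} (hx : x ≠ C.α) : b • x ≠ C.α := fun h =>
  hx (MulAction.injective b (h.trans hb.symm))

theorem decomp {b : G} (hb : b • C.α = C.α) :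
    ∃ k ∈ zpowers C.m, ∃ e ∈ zpowers C.d, b = k * e := by
  obtain ⟨k, hk, h⟩ := C.m_tr C.β (b • C.β) C.β_ne (C.ne_of_fix hb C.β_ne)
  refine ⟨k, hk, k⁻¹ * b, C.mem_D ?_ ?_, by group⟩
  · rw [mul_smul, hb, C.m_α (inv_mem hk)]
  · rw [mul_smul, ← h, inv_smul_smul]

theorem eq_one_of_comm {e : G} (he : e ∈ zpowers C.d) (h : e * C.m = C.m * e) : e = 1 :=
  C.faith e fun y => by
    by_cases hy : y = C.α
    · rw [hy, C.D_α he]
    obtain ⟨k, hk, rfl⟩ := C.m_tr C.β y C.β_ne hy
    obtain ⟨i, rfl⟩ := mem_zpowers_iff.1 hk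
    rw [← mul_smul, ((show Commute e C.m from h).zpow_right i).eq, mul_smul, C.D_β he]

theorem conj_D {e : G} (he : e ∈ zpowers C.d) : C.u * e * C.u ∈ zpowers C.d := by
  refine C.mem_D ?_ ?_
  · rw [mul_smul, mul_smul]; change C.u • e • C.β = _; rw [C.D_β he, C.u_β]
  · rw [mul_smul, mul_smul, C.u_β, C.D_α he]; rfl

include C in
theorem fin : Finite Ω := Nat.finite_of_card_ne_zero (by have := C.big; omega)

include C in
theorem even : Even (Nat.card Ω) := by
  have := C.fin
  by_contra h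
  obtain ⟨x, -, hx⟩ := exists_fixed (fun _ : Ω => True) (fun x => C.u • x) (fun _ _ => trivial)
    C.uu (by rw [Nat.card_congr (Equiv.subtypeUnivEquiv fun _ => trivial)]
             exact Nat.not_even_iff_odd.1 h)
  exact C.u_free x hx

theorem order_m : orderOf C.m + 1 = Nat.card Ω := by
  have := C.fin
  have h1 := card_ne (fun _ : Ω => True) (x := C.α) trivial
  rw [Nat.card_congr (Equiv.subtypeUnivEquiv fun _ : Ω => (trivial : True))] at h1
  rw [← h1, ← Nat.card_zpowers]
  congr 1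
  refine Nat.card_congr (Equiv.ofBijective
    (fun k => ⟨k.1 • C.β, trivial, C.m_ne k.2 C.β_ne⟩) ⟨fun k l h => ?_, fun y => ?_⟩)
  · exact Subtype.ext (C.m_eq k.2 l.2 C.β_ne (congrArg Subtype.val h))
  · obtain ⟨k, hk, h⟩ := C.m_tr C.β y.1 C.β_ne y.2.2
    exact ⟨⟨k, hk⟩, Subtype.ext h⟩

theorem odd_m : Odd (orderOf C.m) := by
  have := C.even
  rw [← C.order_m] at this
  exact Nat.not_even_iff_odd.1 (Nat.even_add_one.1 this)

theorem m_ne_one : C.m ≠ 1 := fun h => by
  have := C.order_m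
  have := C.big
  rw [h, orderOf_one] at *
  omega

include C in
theorem exists_third (x y : Ω) : ∃ γ, γ ≠ x ∧ γ ≠ y := by
  have := C.fin
  have : Nontrivial Ω := Finite.one_lt_card_iff_nontrivial.1 (by have := C.big; omega)
  by_contra h
  push Not at h
  have : Nat.card Ω ≤ Nat.card (Fin 2) := by
    classical
    refine Nat.card_le_card_of_surjective (fun i : Fin 2 => if i = 0 then x else y) fun z => ?_
    by_cases hz : z = x
    · exact ⟨0, by simp [hz]⟩
    · exact ⟨1, by simp [h z hz]⟩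
  have := C.big
  simp at *
  omega

/-- A normal subgroup containing the point stabiliser is everything. -/
theorem top_of_stab (K : Subgroup G) [hK : K.Normal] (h : ∀ b : G, b • C.α = C.α → b ∈ K) (g : G) :
    g ∈ K := by
  by_cases hg : g • C.α = C.α
  · exact h g hg
  obtain ⟨γ, h1, h2⟩ := C.exists_third C.α (g • C.α)
  obtain ⟨c, hc1, hc2⟩ := C.two γ C.α γ (g • C.α) h1 h2
  obtain ⟨k, -, hk⟩ := C.a_tr C.α γ
  have hc : c ∈ K := by
    have := hK.conj_mem _ (h (k⁻¹ * c * k) (by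
      rw [mul_smul, mul_smul, hk, hc1, ← hk, inv_smul_smul])) k
    simpa [mul_assoc] using this
  have := K.mul_mem hc (h (c⁻¹ * g) (by rw [mul_smul, ← hc2, inv_smul_smul]))
  simpa using this

theorem even_d [Finite G] : Even (orderOf C.d) := by
  classical
  have := C.fin
  let _ := Fintype.ofFinite Ω
  by_contra hd
  rw [Nat.not_even_iff_odd] at hd
  let σ : G →* ℤˣ := Equiv.Perm.sign.comp (MulAction.toPermHom G Ω)
  have hodd : ∀ g : G, Odd (orderOf g) → σ g = 1 := fun g hg => by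
    have h1 : σ g ^ orderOf g = 1 := by rw [← map_pow, pow_orderOf_eq_one, map_one]
    rcases Int.units_eq_one_or (σ g) with h | h
    · exact h
    · rw [h, hg.neg_one_pow] at h1; exact absurd h1 (by decide)
  have hall : ∀ g, g ∈ σ.ker := C.top_of_stab σ.ker fun b hb => by
    obtain ⟨k, hk, e, he, rfl⟩ := C.decomp hb
    exact mul_mem (zpowers_le.2 (hodd _ C.odd_m) hk) (zpowers_le.2 (hodd _ hd) he)
  have ha : C.a ≠ 1 := fun h => C.u_ne (by simpa [h] using C.u_mem)
  have hfr : ∀ x : Ω, C.a • x ≠ x := fun x h => ha (C.a_free (mem_zpowers _) h)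
  have hc : (MulAction.toPermHom G Ω C.a).IsCycle := by
    refine ⟨C.α, hfr _, fun y _ => ?_⟩
    obtain ⟨g, hg, rfl⟩ := C.a_tr C.α y
    obtain ⟨i, rfl⟩ := mem_zpowers_iff.1 hg
    exact ⟨i, by rw [← map_zpow]; rfl⟩
  have hs : (MulAction.toPermHom G Ω C.a).support = Finset.univ := by
    ext x; simpa using hfr x
  have h1 : σ C.a = 1 := hall _
  have h2 := hc.sign
  rw [hs, Finset.card_univ, ← Nat.card_eq_fintype_card, C.even.neg_one_pow] at h2
  change Equiv.Perm.sign (MulAction.toPermHom G Ω C.a) = 1 at h1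
  rw [h1] at h2
  exact absurd h2 (by decide)

/-- The involution fixing `α` and `β`. -/
noncomputable def z : G := C.d ^ (orderOf C.d / 2)

theorem z_mem : C.z ∈ zpowers C.d := npow_mem_zpowers _ _

variable [Finite G]

theorem two_half : 2 * (orderOf C.d / 2) = orderOf C.d := Nat.two_mul_div_two_of_even C.even_d

theorem z_sq : C.z * C.z = 1 := by
  rw [z, ← pow_add, ← two_mul, C.two_half, pow_orderOf_eq_one]

theorem z_ne : C.z ≠ 1 := by
  have h1 := C.two_half
  have h2 := orderOf_pos C.d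
  exact pow_ne_one_of_lt_orderOf (by omega) (by omega)

theorem z_inv : C.z⁻¹ = C.z := inv_eq_of_mul_eq_one_right C.z_sq

theorem eq_z {w : G} (hw : w ∈ zpowers C.d) (h2 : w * w = 1) (h1 : w ≠ 1) : w = C.z :=
  cyc_inv hw C.z_mem h2 C.z_sq h1 C.z_ne

omit [Finite G] in
theorem inv_conj {w : G} (h2 : w * w = 1) (g : G) : g * w * g⁻¹ * (g * w * g⁻¹) = 1 := by
  calc _ = g * (w * w) * g⁻¹ := by group
    _ = 1 := by rw [h2]; group

/-- An involution fixing the images of `α, β` under `g` is the conjugate of `z`. -/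
theorem eq_conj {w g : G} (h2 : w * w = 1) (h1 : w ≠ 1) (ha : w • g • C.α = g • C.α)
    (hb : w • g • C.β = g • C.β) : w = g * C.z * g⁻¹ := by
  have := C.eq_z (w := g⁻¹ * w * g⁻¹⁻¹) (C.mem_D (by simp [mul_smul, ha]) (by simp [mul_smul, hb]))
    (inv_conj h2 _) (fun h => h1 (by simpa using conj_eq_one_iff.1 h))
  rw [← this]; group

include C in
theorem uniq {w w' : G} {x y : Ω} (hxy : x ≠ y) (h2 : w * w = 1) (h1 : w ≠ 1) (hx : w • x = x)
    (hy : w • y = y) (h2' : w' * w' = 1) (h1' : w' ≠ 1) (hx' : w' • x = x) (hy' : w' • y = y) :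
    w = w' := by
  obtain ⟨g, rfl, rfl⟩ := C.two C.α C.β x y C.β_ne.symm hxy
  rw [C.eq_conj h2 h1 hx hy, C.eq_conj h2' h1' hx' hy']

theorem uz : C.u * C.z = C.z * C.u := by
  have := C.eq_z (C.conj_D C.z_mem) (by simpa [C.u_inv] using inv_conj C.z_sq C.u)
    (fun h => C.z_ne (by rw [← C.u_inv] at h; nth_rw 1 [C.u_inv] at h; exact conj_eq_one_iff.1 h))
  calc _ = C.u * C.z * C.u * C.u := by rw [mul_assoc (C.u * C.z), C.u_sq, mul_one]
    _ = _ := by rw [this]

/-- Involutions with a fixed point. -/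
def IsZ (_ : Cfg G Ω) (w : G) : Prop := w * w = 1 ∧ w ≠ 1 ∧ ∃ x : Ω, w • x = x

theorem isZ_z : C.IsZ C.z := ⟨C.z_sq, C.z_ne, _, C.D_α C.z_mem⟩

omit [Finite G] in
theorem IsZ.conj {C : Cfg G Ω} {w : G} (h : C.IsZ w) (g : G) : C.IsZ (g * w * g⁻¹) := by
  obtain ⟨h2, h1, x, hx⟩ := h
  exact ⟨inv_conj h2 g, fun h => h1 (conj_eq_one_iff.1 h), g • x, by simp [mul_smul, hx]⟩

theorem IsZ.exists_conj {C : Cfg G Ω} {w : G} (h : C.IsZ w) : ∃ g : G, w = g * C.z * g⁻¹ := by
  have := C.fin
  obtain ⟨h2, h1, x, hx⟩ := h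
  obtain ⟨y, -, hy, hwy⟩ := exists_fixed2 (fun _ : Ω => True) (fun x => w • x) (fun _ _ => trivial)
    (fun x => by rw [← mul_smul, h2, one_smul])
    (by rw [Nat.card_congr (Equiv.subtypeUnivEquiv fun _ => trivial)]; exact C.even) trivial hx
  obtain ⟨g, rfl, rfl⟩ := C.two C.α C.β x y C.β_ne.symm hy.symm
  exact ⟨g, C.eq_conj h2 h1 hx hwy⟩

/-- The number of points fixed by `z`. -/
noncomputable def f : ℕ := Nat.card {x : Ω // C.z • x = x}

/-- The number of conjugates of `z` mapping `α` to `β`. -/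
noncomputable def N : ℕ := Nat.card {w : G // C.IsZ w ∧ w • C.α = C.β}

theorem card_fix {w : G} (h : C.IsZ w) : Nat.card {x : Ω // w • x = x} = C.f := by
  obtain ⟨g, rfl⟩ := h.exists_conj
  refine (Nat.card_congr (Equiv.subtypeEquiv (MulAction.toPerm g) fun x => ?_)).symm
  simp [mul_smul]

omit [Finite G] in
theorem card_swap {x y : Ω} (h : x ≠ y) : Nat.card {w : G // C.IsZ w ∧ w • x = y} = C.N := by
  obtain ⟨g, rfl, rfl⟩ := C.two C.α C.β x y C.β_ne.symm h
  refine (Nat.card_congr (Equiv.subtypeEquiv (MulAut.conj g).toEquiv fun w => ?_)).symm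
  simp only [MulEquiv.toEquiv_eq_coe, EquivLike.coe_coe, MulAut.conj_apply, mul_smul,
    inv_smul_smul, smul_left_cancel_iff]
  refine and_congr_left fun _ => ⟨fun h => h.conj g, fun h => ?_⟩
  have := h.conj g⁻¹
  simpa [mul_assoc] using this

theorem count : C.f * (C.f - 1) * C.N + C.f = Nat.card Ω := by
  classical
  have := C.fin
  let _ := Fintype.ofFinite Ω
  let _ := Fintype.ofFinite G
  let Z : Finset G := Finset.univ.filter C.IsZ
  let P : Finset (Ω × Ω) := Finset.univ.offDiag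
  have hfix : ∀ w ∈ Z, (Finset.univ.filter fun x : Ω => w • x = x).card = C.f := fun w hw => by
    rw [← C.card_fix (Finset.mem_filter.1 hw).2, Nat.card_eq_fintype_card, Fintype.card_subtype]
  have hfle : C.f ≤ Nat.card Ω := by
    rw [← hfix C.z (by simpa [Z] using C.isZ_z), Nat.card_eq_fintype_card]
    exact Finset.card_le_univ _
  have h1 : Z.card * (Nat.card Ω - C.f) = P.card * C.N := by
    refine Finset.card_mul_eq_card_mul (fun w (p : Ω × Ω) => w • p.1 = p.2) (fun w hw => ?_)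
      fun p hp => ?_
    · have e := Finset.card_filter_add_card_filter_not (s := Finset.univ) fun x : Ω => w • x = x
      rw [hfix w hw, Finset.card_univ, ← Nat.card_eq_fintype_card] at e
      rw [← e, Nat.add_sub_cancel_left]
      symm
      refine Finset.card_bij (fun x _ => (x, w • x)) (fun x hx => ?_) (fun x _ y _ h => ?_)
        fun p hp => ?_
      · simp only [Finset.mem_filter, Finset.mem_univ, true_and] at hx
        simp only [Finset.mem_bipartiteAbove, P, Finset.mem_offDiag, Finset.mem_univ, true_and,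
          and_true]
        exact fun h => hx h.symm
      · exact congrArg Prod.fst h
      · simp only [Finset.mem_bipartiteAbove, P, Finset.mem_offDiag, Finset.mem_univ,
          true_and] at hp
        exact ⟨p.1, by simpa [hp.2] using hp.1.symm, by rw [hp.2]⟩
    · rw [← C.card_swap (Finset.mem_offDiag.1 hp).2.2, Nat.card_eq_fintype_card,
        Fintype.card_subtype]
      congr 1
      ext w; simp [Z]
  have h2 : Z.card * (C.f * C.f - C.f) = P.card * 1 := by
    refine Finset.card_mul_eq_card_mul (fun w (p : Ω × Ω) => w • p.1 = p.1 ∧ w • p.2 = p.2)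
      (fun w hw => ?_) fun p hp => ?_
    · rw [← hfix w hw, ← Finset.offDiag_card]
      congr 1
      ext p
      simp only [Finset.mem_bipartiteAbove, P, Finset.mem_offDiag, Finset.mem_univ, true_and,
        Finset.mem_filter]
      tauto
    · obtain ⟨g, h1, h2⟩ := C.two C.α C.β p.1 p.2 C.β_ne.symm (Finset.mem_offDiag.1 hp).2.2
      refine Finset.card_eq_one.2 ⟨g * C.z * g⁻¹, ?_⟩
      ext w
      simp only [Finset.mem_bipartiteBelow, Z, Finset.mem_filter, Finset.mem_univ, true_and,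
        Finset.mem_singleton]
      constructor
      · rintro ⟨hw, ha, hb⟩
        exact C.eq_conj hw.1 hw.2.1 (by rwa [h1]) (by rwa [h2])
      · rintro rfl
        refine ⟨C.isZ_z.conj g, ?_, ?_⟩
        · rw [← h1]; simp [mul_smul, C.D_α C.z_mem]
        · rw [← h2]; simp [mul_smul, C.D_β C.z_mem]
  have hZ : 0 < Z.card := Finset.card_pos.2 ⟨C.z, by simpa [Z] using C.isZ_z⟩
  rw [mul_one] at h2
  rw [← h2, mul_assoc] at h1
  have h3 := Nat.eq_of_mul_eq_mul_left hZ h1
  rw [Nat.mul_sub_one]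
  omega

end Cfg

end H46.CZ
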