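import Mathlib
import Cfsg.Agent.Lib.CZ.Cfg
import Cfsg.Agent.S0730

/-! The involutions interchanging two points; the case that `z` fixes only two points. -/

set_option autoImplicit false

namespace H46.CZ

open Subgroup

namespace Cfg

variable {G Ω : Type*} [Group G] [MulAction G Ω] (C : Cfg G Ω)

/-- A generator of `[D, u]`. -/
def j : G := C.u * C.d⁻¹ * C.u * C.d

theorem j_mem : C.j ∈ zpowers C.d :=
  mul_mem (C.conj_D (inv_mem (mem_zpowers _))) (mem_zpowers _)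

theorem phi (i : ℤ) : C.u * (C.d ^ i)⁻¹ * C.u * C.d ^ i = C.j ^ i := by
  have h : Commute (C.u * C.d⁻¹ * C.u) C.d :=
    comm_of_zpowers (C.conj_D (inv_mem (mem_zpowers _))) (mem_zpowers _)
  rw [j, h.mul_zpow]
  congr 1
  have := conj_zpow (a := C.u) (b := C.d⁻¹) (i := i)
  rw [C.u_inv] at this
  rw [this, inv_zpow]

theorem phi_mem {e : G} (he : e ∈ zpowers C.d) : C.u * e⁻¹ * C.u * e ∈ zpowers C.j := by
  obtain ⟨i, rfl⟩ := mem_zpowers_iff.1 he
  rw [C.phi]; exact zpow_mem_zpowers _ _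

theorem exists_phi {x : G} (hx : x ∈ zpowers C.j) :
    ∃ e ∈ zpowers C.d, x = C.u * e⁻¹ * C.u * e := by
  obtain ⟨i, rfl⟩ := mem_zpowers_iff.1 hx
  exact ⟨_, zpow_mem_zpowers _ i, (C.phi i).symm⟩

theorem u_cancel (x : G) : C.u * (C.u * x) = x := by rw [← mul_assoc, C.u_sq, one_mul]

theorem inv_of_J {x : G} (hx : x ∈ zpowers C.j) : C.u * x * C.u = x⁻¹ := by
  obtain ⟨e, -, rfl⟩ := C.exists_phi hx
  simp only [mul_inv_rev, inv_inv, C.u_inv, mul_assoc, C.u_cancel]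

theorem swap_mem {w : G} (h2 : w * w = 1) (h : w • C.α = C.β) : C.u * w ∈ zpowers C.d := by
  refine C.mem_D (by rw [mul_smul, h, C.u_β]) ?_
  rw [mul_smul]
  nth_rw 1 [← h]
  rw [← mul_smul w, h2, one_smul]; rfl

theorem swap_sq {w : G} (h2 : w * w = 1) (h : w • C.α = C.β) :
    C.u * w * (C.u * w) ∈ zpowers C.j := by
  have := C.phi_mem (C.swap_mem h2 h)
  rw [mul_inv_rev, C.u_inv, inv_eq_of_mul_eq_one_right h2] at this
  simpa only [mul_assoc, C.u_cancel] using this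

theorem not_mem_J {w : G} (hw : C.IsZ w) : C.u * w ∉ zpowers C.j := fun h => by
  obtain ⟨e, -, he⟩ := C.exists_phi h
  obtain ⟨x, hx⟩ := hw.2.2
  have : w = e⁻¹ * C.u * e := by
    rw [← C.u_cancel w, he]; simp only [mul_assoc, C.u_cancel]
  rw [this, mul_smul, mul_smul, inv_smul_eq_iff] at hx
  exact C.u_free _ hx

theorem swap_conj {w w' : G} (hw : C.IsZ w) (h : w • C.α = C.β) (hw' : C.IsZ w')
    (h' : w' • C.α = C.β) : ∃ x ∈ zpowers C.j, w' = w * x := by
  have h1 := cyc_inv_mod (zpowers C.j) (C.swap_mem hw'.1 h') (C.swap_mem hw.1 h)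
    (C.swap_sq hw'.1 h') (C.swap_sq hw.1 h) (C.not_mem_J hw') (C.not_mem_J hw)
  refine ⟨_, h1, ?_⟩
  rw [comm_of_zpowers (C.swap_mem hw'.1 h') (inv_mem (C.swap_mem hw.1 h)), mul_inv_rev, C.u_inv]
  simp only [mul_assoc, C.u_cancel, mul_inv_cancel_left]

theorem mul_phi {w e : G} (h2 : w * w = 1) (h : w • C.α = C.β) (he : e ∈ zpowers C.d) :
    w * (C.u * e⁻¹ * C.u * e) = e⁻¹ * w * e := by
  have h1 := comm_of_zpowers (C.swap_mem h2 h) (C.conj_D (inv_mem he))
  calc _ = C.u * (C.u * w * (C.u * e⁻¹ * C.u)) * e := by simp only [mul_assoc, C.u_cancel]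
    _ = _ := by rw [h1]; simp only [mul_assoc, C.u_cancel]

variable [Finite G]

theorem exists_swap : ∃ w, C.IsZ w ∧ w • C.α = C.β := by
  obtain ⟨x, hx⟩ : ∃ x : Ω, C.z • x ≠ x := by
    by_contra h
    push Not at h
    exact C.z_ne (C.faith _ h)
  obtain ⟨g, h1, h2⟩ := C.two x (C.z • x) C.α C.β hx.symm C.β_ne.symm
  exact ⟨_, C.isZ_z.conj g, by rw [← h2, ← h1]; simp [mul_smul]⟩

theorem N_eq : C.N = orderOf C.j := by
  obtain ⟨w, hw, h⟩ := C.exists_swap
  rw [← Nat.card_zpowers]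
  symm
  refine Nat.card_congr (Equiv.ofBijective (fun x => ⟨w * x.1, ?_, ?_⟩) ⟨fun x y hxy => ?_,
    fun w' => ?_⟩)
  · obtain ⟨e, he, hx⟩ := C.exists_phi x.2
    rw [hx, C.mul_phi hw.1 h he]
    simpa using hw.conj e⁻¹
  · rw [mul_smul, C.D_α (zpowers_le.2 C.j_mem x.2), h]
  · exact Subtype.ext (mul_left_cancel (congrArg Subtype.val hxy))
  · obtain ⟨x, hx, e⟩ := C.swap_conj hw h w'.2.1 w'.2.2
    exact ⟨⟨x, hx⟩, Subtype.ext e.symm⟩

theorem two_N_dvd : 2 * orderOf C.j ∣ orderOf C.d := by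
  have h := C.phi (orderOf C.d / 2 : ℕ)
  rw [zpow_natCast, zpow_natCast] at h
  change C.u * C.z⁻¹ * C.u * C.z = _ at h
  rw [C.z_inv, C.uz, mul_assoc C.z, C.u_sq, mul_one, C.z_sq] at h
  rw [← C.two_half]
  exact Nat.mul_dvd_mul_left 2 (orderOf_dvd_of_pow_eq_one h.symm)

/-- The sharply triply transitive case. -/
structure Sharp : Prop where
  prime : (orderOf C.m).Prime
  od : orderOf C.d + 1 = orderOf C.m
  inv : C.u * C.d * C.u = C.d⁻¹
  tr : ∀ x y : Ω, x ≠ C.α → x ≠ C.β → y ≠ C.α → y ≠ C.β → ∃ e ∈ zpowers C.d, e • x = y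

omit [Finite G] in
theorem conj_eq {e k l : G} (he : e ∈ zpowers C.d) (hk : k ∈ zpowers C.m) (hl : l ∈ zpowers C.m)
    (h : e • k • C.β = l • C.β) : e * k * e⁻¹ = l :=
  C.m_eq (C.conj_M (C.D_α he) hk) hl C.β_ne (by
    rw [mul_smul, mul_smul, C.D_β (inv_mem he), h])

theorem sharp_of_two (hf : C.f = 2) : C.Sharp := by
  have := C.fin
  have hc := C.count
  rw [hf, C.N_eq, ← C.order_m] at hc
  have hmβ : C.m • C.β ≠ C.β := fun h => C.m_ne_one (C.m_free (mem_zpowers _) C.β_ne h)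
  have hcard : Nat.card {y : Ω // y ≠ C.α ∧ y ≠ C.β} + 1 = orderOf C.m := by
    have h1 := card_ne (fun y : Ω => y ≠ C.α) C.β_ne
    have h2 := card_ne (fun _ : Ω => True) (x := C.α) trivial
    rw [Nat.card_congr (Equiv.subtypeUnivEquiv fun _ : Ω => (trivial : True)), ← C.order_m] at h2
    simp only [true_and] at h2
    omega
  let F : zpowers C.d → {y : Ω // y ≠ C.α ∧ y ≠ C.β} := fun e =>
    ⟨e.1 • C.m • C.β, C.ne_of_fix (C.D_α e.2) (C.m_ne (mem_zpowers _) C.β_ne), fun h =>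
      hmβ (MulAction.injective e.1 (h.trans (C.D_β e.2).symm))⟩
  have hF : Function.Injective F := fun e e' h => by
    have h1 : e.1 • C.m • C.β = e'.1 • C.m • C.β := congrArg Subtype.val h
    have he := mul_mem (inv_mem e'.2) e.2
    have h2 := C.conj_eq he (mem_zpowers _) (mem_zpowers _) (by rw [mul_smul, h1, inv_smul_smul])
    have h3 := C.eq_one_of_comm he (mul_inv_eq_iff_eq_mul.1 h2)
    exact Subtype.ext (inv_mul_eq_one.1 h3).symm
  have hle := Nat.card_le_card_of_injective F hF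
  rw [Nat.card_zpowers] at hle
  have hge := Nat.le_of_dvd (orderOf_pos _) C.two_N_dvd
  have hod : orderOf C.d + 1 = orderOf C.m := by omega
  have hS : Function.Surjective F :=
    (hF.bijective_of_nat_card_le (by rw [Nat.card_zpowers]; omega)).2
  refine ⟨?_, hod, ?_, fun x y h1 h2 h3 h4 => ?_⟩
  · have hpos := orderOf_pos C.d
    refine Nat.prime_def_lt.2 ⟨by omega, fun q hq hd => ?_⟩
    by_contra hq1
    have hq0 : q ≠ 0 := by rintro rfl; have := Nat.eq_zero_of_zero_dvd hd; omega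
    have hk : C.m ^ q ≠ 1 := pow_ne_one_of_lt_orderOf hq0 hq
    obtain ⟨e, he⟩ := hS ⟨C.m ^ q • C.β, C.m_ne (npow_mem_zpowers _ _) C.β_ne, fun h =>
      hk (C.m_free (npow_mem_zpowers _ _) C.β_ne h)⟩
    have h2 := C.conj_eq e.2 (mem_zpowers _) (npow_mem_zpowers _ q) (congrArg Subtype.val he)
    have h3 : orderOf (C.m ^ q) = orderOf C.m := by
      rw [← h2]; exact (SemiconjBy.orderOf_eq e.1 (by simp [SemiconjBy])).symm
    rw [orderOf_pow_of_dvd hq0 hd] at h3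
    have := Nat.div_lt_self (orderOf_pos C.m) (show 1 < q by omega)
    omega
  · obtain ⟨w, hw, h⟩ := C.exists_swap
    have hJ : zpowers C.j ≤ zpowers C.d := zpowers_le.2 C.j_mem
    have hidx : ((zpowers C.j).subgroupOf (zpowers C.d)).index = 2 := by
      have := ((zpowers C.j).subgroupOf (zpowers C.d)).card_mul_index
      rw [Nat.card_congr (subgroupOfEquivOfLe hJ).toEquiv, Nat.card_zpowers,
        Nat.card_zpowers] at this
      have hp := orderOf_pos C.j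
      refine Nat.eq_of_mul_eq_mul_left hp (by omega)
    have hd : C.d ∉ zpowers C.j := fun h => by
      have := card_le_of_le (zpowers_le.2 h)
      rw [Nat.card_zpowers, Nat.card_zpowers] at this
      have hp := orderOf_pos C.j
      omega
    have h1 := (mul_mem_iff_of_index_two hidx (a := ⟨C.d, mem_zpowers _⟩)
      (b := ⟨_, C.swap_mem hw.1 h⟩)).2 (iff_of_false hd (C.not_mem_J hw))
    have h2 : C.u * (C.d * (C.u * w)) * C.u = (C.d * (C.u * w))⁻¹ := C.inv_of_J h1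
    rw [comm_of_zpowers (mem_zpowers C.d) (C.swap_mem hw.1 h)] at h2
    nth_rw 2 [← comm_of_zpowers (mem_zpowers C.d) (C.swap_mem hw.1 h)] at h2
    simp only [mul_inv_rev, C.u_inv, inv_eq_of_mul_eq_one_right hw.1, mul_assoc,
      C.u_cancel] at h2
    have h3 := mul_left_cancel h2
    rw [mul_assoc, h3, C.u_cancel]
  · obtain ⟨e, he⟩ := hS ⟨x, h1, h2⟩
    obtain ⟨e', he'⟩ := hS ⟨y, h3, h4⟩
    have a1 : e.1 • C.m • C.β = x := congrArg Subtype.val he
    have a2 : e'.1 • C.m • C.β = y := congrArg Subtype.val he'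
    exact ⟨e'.1 * e.1⁻¹, mul_mem e'.2 (inv_mem e.2), by rw [← a1, mul_smul, inv_smul_smul, a2]⟩

variable {C}

omit [Finite G] in
theorem Sharp.gen (h : C.Sharp) {k : G} (hk : k ∈ zpowers C.m) (h1 : k ≠ 1) :
    C.m ∈ zpowers k := by
  have : Fact (orderOf C.m).Prime := ⟨h.prime⟩
  have := mem_zpowers_of_prime_card (G := zpowers C.m) (Nat.card_zpowers _) (g := ⟨k, hk⟩)
    (g' := ⟨C.m, mem_zpowers _⟩) (fun e => h1 (congrArg Subtype.val e))
  obtain ⟨i, hi⟩ := mem_zpowers_iff.1 this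
  exact ⟨i, by simpa using congrArg Subtype.val hi⟩

omit [Finite G] in
theorem Sharp.free (h : C.Sharp) {e : G} (he : e ∈ zpowers C.d) {x : Ω} (h1 : x ≠ C.α)
    (h2 : x ≠ C.β) (hx : e • x = x) : e = 1 := by
  obtain ⟨k, hk, rfl⟩ := C.m_tr C.β x C.β_ne h1
  have h3 := C.conj_eq he hk hk hx
  obtain ⟨i, hi⟩ := mem_zpowers_iff.1 (h.gen hk (by rintro rfl; simp at h2))
  refine C.eq_one_of_comm he ?_
  rw [← hi]
  exact ((show Commute e k from mul_inv_eq_iff_eq_mul.1 h3).zpow_right i).eq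

omit [Finite G] in
theorem Sharp.three (h : C.Sharp) {g : G} {x y w : Ω} (hxy : x ≠ y) (hxw : x ≠ w) (hyw : y ≠ w)
    (hx : g • x = x) (hy : g • y = y) (hw : g • w = w) : g = 1 := by
  obtain ⟨c, rfl, rfl⟩ := C.two C.α C.β x y C.β_ne.symm hxy
  have := h.free (e := c⁻¹ * g * c⁻¹⁻¹) (C.mem_D (by simp [mul_smul, hx]) (by simp [mul_smul, hy]))
    (x := c⁻¹ • w) (fun e => hxw (by rw [← e, smul_inv_smul])) (fun e => hyw (by
      rw [← e, smul_inv_smul])) (by simp [mul_smul, hw])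
  exact conj_eq_one_iff.1 this

omit [Finite G] in
theorem Sharp.exists_three (h : C.Sharp) {x y w x' y' w' : Ω} (hxy : x ≠ y) (hxw : x ≠ w)
    (hyw : y ≠ w) (hxy' : x' ≠ y') (hxw' : x' ≠ w') (hyw' : y' ≠ w') :
    ∃ g : G, g • x = x' ∧ g • y = y' ∧ g • w = w' := by
  obtain ⟨c, rfl, rfl⟩ := C.two C.α C.β x y C.β_ne.symm hxy
  obtain ⟨c', rfl, rfl⟩ := C.two C.α C.β x' y' C.β_ne.symm hxy'
  obtain ⟨e, he, hw⟩ := h.tr (c⁻¹ • w) (c'⁻¹ • w') (fun e => hxw (by rw [← e, smul_inv_smul]))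
    (fun e => hyw (by rw [← e, smul_inv_smul])) (fun e => hxw' (by rw [← e, smul_inv_smul]))
    (fun e => hyw' (by rw [← e, smul_inv_smul]))
  exact ⟨c' * e * c⁻¹, by simp [mul_smul, C.D_α he], by simp [mul_smul, C.D_β he], by
    simp [mul_smul, hw]⟩

omit [Finite G] in
theorem Sharp.iso (h : C.Sharp) : ∃ (F : Type) (_ : Field F) (_ : Fintype F),
    Fintype.card F = orderOf C.m ∧ Nonempty (G ≃* Matrix.ProjGenLinGroup (Fin 2) F) := by
  classical
  have := C.fin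
  let _ := Fintype.ofFinite Ω
  have hinj : Function.Injective (MulAction.toPermHom G Ω) := fun g g' e =>
    C.ext_smul fun x => DFunLike.congr_fun e x
  obtain ⟨F, _, _, hF, ⟨e⟩⟩ := Cfsg.Agent.S0730.result (α := Ω) (f := 1) h.prime
    (fun e => by have := C.odd_m; rw [e] at this; exact absurd this (by decide)) odd_one
    (by rw [pow_one, C.order_m, Nat.card_eq_fintype_card]) (MulAction.toPermHom G Ω).range
    ⟨fun x y => by
      obtain ⟨g, h0, h1, h2⟩ := h.exists_three (x := x 0) (y := x 1) (w := x 2) (x' := y 0)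
        (y' := y 1) (w' := y 2) (x.injective.ne (by decide)) (x.injective.ne (by decide))
        (x.injective.ne (by decide)) (y.injective.ne (by decide)) (y.injective.ne (by decide))
        (y.injective.ne (by decide))
      refine ⟨⟨_, g, rfl⟩, ?_⟩
      ext i
      fin_cases i
      exacts [h0, h1, h2]⟩
    (fun x => eq_bot_iff.2 fun g hg => by
      obtain ⟨_, g, rfl⟩ := g
      have hi : ∀ i, g • x i = x i := fun i => DFunLike.congr_fun hg i
      have := h.three (x.injective.ne (show (0 : Fin 3) ≠ 1 by decide))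
        (x.injective.ne (show (0 : Fin 3) ≠ 2 by decide))
        (x.injective.ne (show (1 : Fin 3) ≠ 2 by decide)) (hi _) (hi _) (hi _)
      subst this
      exact mem_bot.2 (Subtype.ext (map_one _)))
  exact ⟨F, _, _, by simpa using hF, ⟨(MonoidHom.ofInjective hinj).trans e⟩⟩

omit [Finite G] in
theorem Sharp.comm (h : C.Sharp) (x y : G) (i k : ℕ) (e : x ^ i = y ^ k) (h1 : x ^ i ≠ 1) :
    x * y = y * x := by
  obtain ⟨F, _, _, -, ⟨φ⟩⟩ := h.iso
  apply φ.injective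
  rw [map_mul, map_mul]
  exact pgl_comm _ _ i k (by rw [← map_pow, ← map_pow, e])
    (by rw [← map_pow]; exact fun h => h1 ((map_eq_one_iff _ φ.injective).1 h))

omit [Finite G] in
theorem Sharp.mem_M (h : C.Sharp) {b : G} (hb : b • C.α = C.α) (hp : b ^ orderOf C.m = 1) :
    b ∈ zpowers C.m := by
  obtain ⟨k, hk, e, he, rfl⟩ := C.decomp hb
  have key : ∀ i : ℕ, ∃ l ∈ zpowers C.m, (k * e) ^ i = l * e ^ i := fun i => by
    induction i with
    | zero => exact ⟨1, one_mem _, by simp⟩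
    | succ i ih =>
      obtain ⟨l, hl, ih⟩ := ih
      refine ⟨l * (e ^ i * k * (e ^ i)⁻¹), mul_mem hl (C.conj_M (C.D_α (pow_mem he i)) hk), ?_⟩
      rw [pow_succ, ih, pow_succ]; group
  obtain ⟨l, hl, h1⟩ := key (orderOf C.m)
  rw [hp] at h1
  have h2 : l = 1 := C.m_free hl C.β_ne (by
    have := congrArg (· • C.β) h1
    simp only [one_smul, mul_smul, C.D_β (pow_mem he _)] at this
    exact this.symm)
  rw [h2, one_mul] at h1
  have h3 : orderOf e ∣ orderOf C.m := orderOf_dvd_of_pow_eq_one h1.symm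
  have h4 : orderOf e ∣ orderOf C.d := orderOf_dvd_of_mem_zpowers he
  have h5 : orderOf e = 1 := Nat.eq_one_of_dvd_coprimes
    (by rw [← h.od]; simp) h4 h3
  rw [orderOf_eq_one_iff.1 h5, mul_one]
  exact hk

omit [Finite G] in
theorem Sharp.exists_fix (h : C.Sharp) {y : G} (hp : y ^ orderOf C.m = 1) : ∃ x : Ω, y • x = x := by
  classical
  have := C.fin
  let _ := Fintype.ofFinite Ω
  have : Fact (orderOf C.m).Prime := ⟨h.prime⟩
  exact Equiv.Perm.exists_fixed_point_of_prime (p := orderOf C.m) (n := 1)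
    (σ := MulAction.toPermHom G Ω y) (by
      rw [← Nat.card_eq_fintype_card, ← C.order_m, Nat.dvd_add_right dvd_rfl, Nat.dvd_one]
      exact h.prime.ne_one) (by rw [pow_one, ← map_pow, hp, map_one])

omit [Finite G] in
theorem Sharp.mem_conj (h : C.Sharp) {y g : G} (hp : y ^ orderOf C.m = 1)
    (hy : y • g • C.α = g • C.α) : g⁻¹ * y * g⁻¹⁻¹ ∈ zpowers C.m :=
  h.mem_M (by simp [mul_smul, hy]) (by rw [conj_pow, hp]; simp)

omit [Finite G] in
theorem Sharp.fix_uniq (h : C.Sharp) {y : G} (hp : y ^ orderOf C.m = 1) (h1 : y ≠ 1) {x x' : Ω}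
    (hx : y • x = x) (hx' : y • x' = x') : x = x' := by
  obtain ⟨g, -, rfl⟩ := C.a_tr C.α x
  by_contra hne
  exact h1 (conj_eq_one_iff.1 (C.m_free (h.mem_conj hp hx) (x := g⁻¹ • x')
    (fun e => hne (by rw [← e, smul_inv_smul])) (by simp [mul_smul, hx'])))

omit [Finite G] in
theorem Sharp.mem_zpowers (h : C.Sharp) {y y' : G} (hp : y ^ orderOf C.m = 1) (h1 : y ≠ 1)
    (hp' : y' ^ orderOf C.m = 1) {x : Ω} (hx : y • x = x) (hx' : y' • x = x) :
    y' ∈ zpowers y := by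
  obtain ⟨g, -, rfl⟩ := C.a_tr C.α x
  have h2 := zpowers_le.2 (h.gen (h.mem_conj hp hx) fun e => h1 (conj_eq_one_iff.1 e))
    (h.mem_conj hp' hx')
  obtain ⟨i, hi⟩ := mem_zpowers_iff.1 h2
  rw [conj_zpow] at hi
  exact ⟨i, mul_left_cancel (mul_right_cancel hi)⟩

omit [Finite G] in
theorem Sharp.aut_eq (h : C.Sharp) (σ : G ≃* G) (h1 : σ C.m = C.m)
    (h2 : σ (C.u * C.m * C.u⁻¹) • C.β = C.β) (g : G) : σ g = g := by
  have hm : C.m ^ orderOf C.m = 1 := pow_orderOf_eq_one _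
  have hy : ∀ x : Ω, ∃ y : G, y ^ orderOf C.m = 1 ∧ y ≠ 1 ∧ y • x = x ∧ σ y • x = x := fun x => by
    by_cases hx : x = C.α
    · exact ⟨C.m, hm, C.m_ne_one, hx ▸ C.m_fix, by rw [h1, hx, C.m_fix]⟩
    obtain ⟨k, hk, rfl⟩ := C.m_tr C.β x C.β_ne hx
    have hσ : σ k = k := by
      obtain ⟨i, rfl⟩ := mem_zpowers_iff.1 hk
      rw [map_zpow, h1]
    refine ⟨k * (C.u * C.m * C.u⁻¹) * k⁻¹, by rw [conj_pow, conj_pow, hm]; simp,
      fun e => C.m_ne_one (conj_eq_one_iff.1 (conj_eq_one_iff.1 e)), ?_, ?_⟩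
    · simp [mul_smul, β, C.m_fix]
    · rw [map_mul, map_mul, map_inv, hσ, mul_smul, mul_smul, inv_smul_smul, h2]
  refine C.ext_smul fun x => ?_
  obtain ⟨y, hp, hn, hx, hσ⟩ := hy x
  obtain ⟨y', hp', hn', hx', hσ'⟩ := hy (g • x)
  have h3 := h.mem_zpowers hp' hn' (y' := g * y * g⁻¹) (by rw [conj_pow, hp]; simp) hx'
    (by simp [mul_smul, hx])
  obtain ⟨i, hi⟩ := mem_zpowers_iff.1 h3
  refine h.fix_uniq (y := σ (g * y * g⁻¹)) (by rw [← map_pow, conj_pow, hp]; simp)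
    (fun e => hn (conj_eq_one_iff.1 ((map_eq_one_iff _ σ.injective).1 e))) ?_ ?_
  · simp [mul_smul, hσ]
  · rw [← hi, map_zpow]
    exact zpowers_fix hσ' (zpow_mem_zpowers _ _)

omit [Finite G] in
/-- Every automorphism is inner. -/
theorem Sharp.inner (h : C.Sharp) (σ : G ≃* G) : ∃ g : G, ∀ x, σ x = g * x * g⁻¹ := by
  have hm : C.m ^ orderOf C.m = 1 := pow_orderOf_eq_one _
  have hm' : (C.u * C.m * C.u⁻¹) ^ orderOf C.m = 1 := by rw [conj_pow, hm]; simp
  have hβ : (C.u * C.m * C.u⁻¹) • C.β = C.β := by simp [mul_smul, β, C.m_fix]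
  have p1 : σ C.m ^ orderOf C.m = 1 := by rw [← map_pow, hm, map_one]
  have p2 : σ (C.u * C.m * C.u⁻¹) ^ orderOf C.m = 1 := by rw [← map_pow, hm', map_one]
  have n1 : σ C.m ≠ 1 := fun e => C.m_ne_one ((map_eq_one_iff _ σ.injective).1 e)
  obtain ⟨x, hx⟩ := h.exists_fix p1
  obtain ⟨y, hy⟩ := h.exists_fix p2
  have hxy : x ≠ y := by
    rintro rfl
    obtain ⟨i, hi⟩ := mem_zpowers_iff.1 (h.mem_zpowers p1 n1 p2 hx hy)
    rw [← map_zpow] at hi
    have h1 := σ.injective hi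
    have h2 : (C.u * C.m * C.u⁻¹) • C.α = C.α := by
      rw [← h1]; exact C.m_α (zpow_mem_zpowers _ _)
    exact C.β_ne (h.fix_uniq hm' (fun e => C.m_ne_one (conj_eq_one_iff.1 e)) hβ h2)
  obtain ⟨c, hc1, hc2⟩ := C.two x y C.α C.β hxy C.β_ne.symm
  have hk : c * σ C.m * c⁻¹ ∈ zpowers C.m :=
    h.mem_M (by rw [← hc1]; simp [mul_smul, hx]) (by rw [conj_pow, p1]; simp)
  have hk1 : c * σ C.m * c⁻¹ ≠ 1 := fun e => n1 (conj_eq_one_iff.1 e)
  obtain ⟨e, he, hem⟩ := h.tr ((c * σ C.m * c⁻¹) • C.β) (C.m • C.β) (C.m_ne hk C.β_ne)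
    (fun e => hk1 (C.m_free hk C.β_ne e)) (C.m_ne (Subgroup.mem_zpowers _) C.β_ne)
    (fun e => C.m_ne_one (C.m_free (Subgroup.mem_zpowers _) C.β_ne e))
  have h3 := C.conj_eq he hk (Subgroup.mem_zpowers _) hem
  have h4 := h.aut_eq (σ.trans (MulAut.conj (e * c))) (by
      rw [MulEquiv.trans_apply, MulAut.conj_apply]
      nth_rw 2 [← h3]
      group) (by
      rw [MulEquiv.trans_apply, MulAut.conj_apply, mul_inv_rev]
      generalize σ (C.u * C.m * C.u⁻¹) = s at hy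
      rw [mul_smul, mul_smul, mul_smul, mul_smul, C.D_β (inv_mem he), ← hc2, inv_smul_smul, hy,
        hc2, C.D_β he])
  refine ⟨(e * c)⁻¹, fun x => ?_⟩
  have := h4 x
  rw [MulEquiv.trans_apply, MulAut.conj_apply] at this
  nth_rw 2 [← this]
  group

end Cfg

end H46.CZ
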