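import Mathlib
import Cfsg.Agent.Lib.CZ.Two

/-! The involution `z` fixes only two points (induction on the action of `C(z)` on `Fix z`). -/

set_option autoImplicit false

namespace H46.CZ

open Subgroup

universe u

theorem psi_mem {G X : Type*} [Group G] [Group X] {H : Subgroup G} (ψ : H →* X) {g h : H}
    (hg : (g : G) ∈ zpowers (h : G)) : ψ g ∈ zpowers (ψ h) := by
  obtain ⟨i, hi⟩ := mem_zpowers_iff.1 hg
  exact mem_zpowers_iff.2 ⟨i, by rw [← map_zpow]; congr 1; exact Subtype.ext hi⟩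

namespace Cfg

variable {G Ω : Type*} [Group G] [MulAction G Ω] (C : Cfg G Ω)

theorem Sharp.inv_all {C : Cfg G Ω} (h : C.Sharp) {e : G} (he : e ∈ zpowers C.d) :
    C.u * e * C.u = e⁻¹ := by
  obtain ⟨i, rfl⟩ := mem_zpowers_iff.1 he
  have := conj_zpow (a := C.u) (b := C.d) (i := i)
  rw [C.u_inv, h.inv] at this
  rw [← this, inv_zpow]

theorem phi_eq_one {e : G} : C.u * e⁻¹ * C.u * e = 1 ↔ C.u * e = e * C.u := by
  constructor
  · intro h
    calc _ = e * C.u * (C.u * e⁻¹ * C.u * e) := by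
          simp only [mul_assoc, C.u_cancel, mul_inv_cancel_left]
      _ = _ := by rw [h, mul_one]
  · intro h
    rw [mul_assoc, h]
    simp only [mul_assoc, inv_mul_cancel_left, C.u_sq]

variable [Finite G]

theorem mem_cent {g : G} {x y : Ω} (hxy : x ≠ y) (hx : C.z • x = x) (hy : C.z • y = y)
    (hgx : C.z • g • x = g • x) (hgy : C.z • g • y = g • y) :
    g ∈ centralizer ({C.z} : Set G) := by
  have := C.uniq (x := g • x) (y := g • y) (fun h => hxy (MulAction.injective g h))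
    (inv_conj C.z_sq g) (fun h => C.z_ne (conj_eq_one_iff.1 h)) (by simp [mul_smul, hx])
    (by simp [mul_smul, hy]) C.z_sq C.z_ne hgx hgy
  exact mem_centralizer_singleton_iff.2 (mul_inv_eq_iff_eq_mul.1 this)

theorem not_cube {p : ℕ} (hp : p.Prime) (h : orderOf C.m = p ^ 3) {k : G} (hk : k ∈ zpowers C.m)
    (hk1 : k ≠ 1) (hz : k * C.z = C.z * k) : False := by
  obtain ⟨t, ht⟩ := mem_zpowers_iff.1 (C.m_norm _ (C.D_α C.z_mem))
  obtain ⟨i, rfl⟩ := mem_zpowers_iff.1 hk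
  have hc : ∀ s : ℤ, C.z * C.m ^ s * C.z⁻¹ = C.m ^ (t * s) := fun s => by
    rw [← conj_zpow, ← ht, zpow_mul]
  have hp' : Prime (p : ℤ) := Nat.prime_iff_prime_int.1 hp
  have hd : ∀ s : ℤ, C.m ^ s = 1 ↔ (p : ℤ) ^ 3 ∣ s := fun s => by
    rw [← orderOf_dvd_iff_zpow_eq_one, h]; push_cast; rfl
  have h1 : (p : ℤ) ^ 3 ∣ (t - 1) * (t + 1) := by
    rw [← hd, show (t - 1) * (t + 1) = t * t - 1 by ring, zpow_sub, ← hc, ht, C.z_inv]
    simp only [← mul_assoc, C.z_sq, one_mul, zpow_one]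
    rw [mul_assoc C.m, C.z_sq, mul_one, mul_inv_cancel]
  have h2 : (p : ℤ) ^ 3 ∣ (t - 1) * i := by
    rw [← hd, show (t - 1) * i = t * i - i by ring, zpow_sub, ← hc, ← hz]
    simp
  have h3 : (p : ℤ) ∣ t - 1 := by
    by_contra h3
    exact hk1 ((hd _).2 (hp'.pow_dvd_of_dvd_mul_left 3 h3 h2))
  have h4 : ¬ (p : ℤ) ∣ t + 1 := fun h4 => by
    have h5 : (p : ℤ) ∣ 2 := by simpa using dvd_sub h4 h3
    have h6 : p = 2 := (Nat.prime_dvd_prime_iff_eq hp Nat.prime_two).1 (by exact_mod_cast h5)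
    have := C.odd_m
    rw [h, h6] at this
    exact absurd this (by decide)
  have h5 := (hd _).2 (hp'.pow_dvd_of_dvd_mul_right 3 h4 h1)
  rw [zpow_sub, ht, zpow_one, mul_inv_eq_one] at h5
  exact C.z_ne (C.eq_one_of_comm C.z_mem (mul_inv_eq_iff_eq_mul.1 h5))

omit [Finite G] in
theorem two_le_f : 2 ≤ C.f := by
  have := C.fin
  have : Nontrivial {x : Ω // C.z • x = x} :=
    ⟨⟨C.β, C.D_β C.z_mem⟩, ⟨C.α, C.D_α C.z_mem⟩, fun h => C.β_ne (congrArg Subtype.val h)⟩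
  exact Finite.one_lt_card_iff_nontrivial.2 this

theorem f_lt : C.f < Nat.card Ω := by
  have := C.count
  have h1 := C.two_le_f
  have h2 : 0 < C.N := by rw [C.N_eq]; exact orderOf_pos _
  have : 0 < C.f * (C.f - 1) * C.N := Nat.mul_pos (Nat.mul_pos (by omega) (by omega)) h2
  omega

theorem u_cent : C.u ∈ centralizer ({C.z} : Set G) := mem_centralizer_singleton_iff.2 C.uz

omit [Finite G] in
theorem D_cent {e : G} (he : e ∈ zpowers C.d) : e ∈ centralizer ({C.z} : Set G) :=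
  mem_centralizer_singleton_iff.2 (comm_of_zpowers he C.z_mem)

omit [Finite G] in
theorem cent_fix {h : G} (hh : h ∈ centralizer ({C.z} : Set G)) {x : Ω} (hx : C.z • x = x) :
    C.z • h • x = h • x := by
  rw [← mul_smul, ← mem_centralizer_singleton_iff.1 hh, mul_smul, hx]

section step

variable {X : Type*} [Group X] [MulAction X {x : Ω // C.z • x = x}]
  (ψ : centralizer ({C.z} : Set G) →* X) (hs : Function.Surjective ψ)
  (hψ : ∀ (h : centralizer ({C.z} : Set G)) (x : {x : Ω // C.z • x = x}), (ψ h • x).1 = (h : G) • x.1)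
  (hf : ∀ g : X, (∀ x : {x : Ω // C.z • x = x}, g • x = x) → g = 1)

include hs hψ hf in
theorem exists_cfg (h2 : 2 < C.f) : ∃ (C' : Cfg X {x : Ω // C.z • x = x})
    (a m : centralizer ({C.z} : Set G)), (a : G) ∈ zpowers C.a ∧ (m : G) ∈ zpowers C.m ∧
    C'.a = ψ a ∧ C'.m = ψ m ∧ C'.u = ψ ⟨_, C.u_cent⟩ ∧ C'.d = ψ ⟨_, C.D_cent (mem_zpowers _)⟩ ∧
    C'.α.1 = C.α := by
  obtain ⟨a, ha, haH, hga⟩ := exists_gen C.a (centralizer ({C.z} : Set G))
  obtain ⟨m, hm, hmH, hgm⟩ := exists_gen C.m (centralizer ({C.z} : Set G))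
  have hα := C.D_α C.z_mem
  refine ⟨{
    a := ψ ⟨a, haH⟩
    u := ψ ⟨_, C.u_cent⟩
    m := ψ ⟨m, hmH⟩
    d := ψ ⟨_, C.D_cent (mem_zpowers _)⟩
    α := ⟨C.α, hα⟩
    faith := hf
    two := fun x y x' y' hxy hxy' => ?_
    a_tr := fun x y => ?_
    u_mem := psi_mem ψ (hga _ C.u_mem C.u_cent)
    u_sq := by rw [← map_mul, ← map_one ψ]; congr 1; exact Subtype.ext C.u_sq
    u_ne := fun h => C.u_free C.α (by simpa [h] using (hψ ⟨_, C.u_cent⟩ ⟨C.α, hα⟩).symm)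
    m_fix := Subtype.ext (by rw [hψ]; exact C.m_α hm)
    m_norm := fun b hb => ?_
    m_tr := fun x y hx hy => ?_
    d_α := Subtype.ext (by rw [hψ]; exact C.d_α)
    d_β := Subtype.ext (by rw [hψ, hψ]; exact C.d_β)
    d_gen := fun g h1 h2 => ?_
    big := h2 }, ⟨a, haH⟩, ⟨m, hmH⟩, ha, hm, rfl, rfl, rfl, rfl, rfl⟩
  · obtain ⟨g, h1, h2⟩ := C.two x.1 y.1 x'.1 y'.1 (fun h => hxy (Subtype.ext h))
      fun h => hxy' (Subtype.ext h)
    have hg := C.mem_cent (fun h => hxy (Subtype.ext h)) x.2 y.2 (h1 ▸ x'.2) (h2 ▸ y'.2)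
    exact ⟨ψ ⟨g, hg⟩, Subtype.ext (by rw [hψ, ← h1]), Subtype.ext (by rw [hψ, ← h2])⟩
  · obtain ⟨g, hg, h⟩ := C.a_tr x.1 y.1
    have hgH := C.mem_cent (g := g) (C.u_free x.1) (C.cent_fix C.u_cent x.2) x.2 (by
      rw [← mul_smul g, comm_of_zpowers hg C.u_mem, mul_smul, h]
      exact C.cent_fix C.u_cent y.2) (h ▸ y.2)
    exact ⟨ψ ⟨g, hgH⟩, psi_mem ψ (hga _ hg hgH), Subtype.ext (by rw [hψ, ← h])⟩
  · obtain ⟨b, rfl⟩ := hs b
    have hb' : (b : G) • C.α = C.α := (hψ b ⟨C.α, hα⟩).symm.trans (congrArg Subtype.val hb)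
    rw [← map_inv, ← map_mul, ← map_mul]
    exact psi_mem ψ (hgm _ (C.conj_M hb' hm) (b * ⟨m, hmH⟩ * b⁻¹).2)
  · obtain ⟨k, hk, h⟩ := C.m_tr x.1 y.1 (fun h => hx (Subtype.ext h)) fun h => hy (Subtype.ext h)
    have hkH := C.mem_cent (g := k) (x := x.1) (y := C.α) (fun h => hx (Subtype.ext h)) x.2 hα
      (h ▸ y.2) (by rw [C.m_α hk, hα])
    exact ⟨ψ ⟨k, hkH⟩, psi_mem ψ (hgm _ hk hkH), Subtype.ext (by rw [hψ, ← h])⟩
  · obtain ⟨g, rfl⟩ := hs g
    refine psi_mem ψ (C.d_gen _ ((hψ g ⟨C.α, hα⟩).symm.trans (congrArg Subtype.val h1)) ?_)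
    have := congrArg Subtype.val h2
    rwa [hψ, hψ] at this

omit [Finite G] in
include hψ in
theorem ker_fix {e : centralizer ({C.z} : Set G)} (he : ψ e = 1) {x : Ω} (hx : C.z • x = x) :
    (e : G) • x = x := by simpa [he] using (hψ e ⟨x, hx⟩).symm

omit [Finite G] in
include hs hψ in
theorem ker_cent (C' : Cfg X {x : Ω // C.z • x = x}) (hα : C'.α.1 = C.α)
    {e : centralizer ({C.z} : Set G)} (he : ψ e = 1) (h : centralizer ({C.z} : Set G)) :
    (h : G) * e = e * h := by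
  have hD : ∀ {e : centralizer ({C.z} : Set G)}, ψ e = 1 → (e : G) ∈ zpowers C.d := fun he =>
    C.mem_D (C.ker_fix ψ hψ he (C.D_α C.z_mem)) (C.ker_fix ψ hψ he (C.D_β C.z_mem))
  let K : Subgroup (centralizer ({C.z} : Set G)) := centralizer ψ.ker
  have hK : (K.map ψ).Normal := Normal.map inferInstance ψ hs
  have hst : ∀ b : centralizer ({C.z} : Set G), (b : G) • C.α = C.α → b ∈ K := fun b hb e he => by
    obtain ⟨k, hk, c, hc, hb'⟩ := C.decomp hb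
    have hkH : k ∈ centralizer ({C.z} : Set G) := by
      have := mul_mem b.2 (inv_mem (C.D_cent hc))
      rwa [hb', mul_inv_cancel_right] at this
    have h1 := C.conj_eq (hD he) hk hk (C.ker_fix ψ hψ he (C.cent_fix hkH (C.D_β C.z_mem)))
    refine Subtype.ext ?_
    rw [coe_mul, coe_mul, hb', ← mul_assoc, mul_inv_eq_iff_eq_mul.1 h1, mul_assoc, mul_assoc,
      comm_of_zpowers (hD he) hc]
  obtain ⟨k, hk, hkh⟩ := C'.top_of_stab (K.map ψ) (fun b hb => by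
    obtain ⟨b, rfl⟩ := hs b
    exact mem_map_of_mem _ (hst b (by rw [← hα, ← hψ, hb]))) (ψ h)
  have h1 : k⁻¹ * h ∈ K := hst _ (C.ker_fix ψ hψ (by rw [map_mul, map_inv, hkh, inv_mul_cancel])
    (C.D_α C.z_mem))
  have h2 : h ∈ K := by simpa using mul_mem hk h1
  exact (congrArg Subtype.val (h2 e he)).symm

include hs hψ in
theorem step_a (C' : Cfg X {x : Ω // C.z • x = x}) (S : C'.Sharp) (hα : C'.α.1 = C.α)
    {m : centralizer ({C.z} : Set G)} (hm : (m : G) ∈ zpowers C.m) (hm' : C'.m = ψ m)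
    (hu : C'.u = ψ ⟨_, C.u_cent⟩) (hd : C'.d = ψ ⟨_, C.D_cent (mem_zpowers _)⟩) :
    C.z ∉ zpowers C.j := fun hz => by
  obtain ⟨c, hc, hzc⟩ := C.exists_phi hz
  have hD : ∀ {e : G} (he : e ∈ zpowers C.d), ψ ⟨e, C.D_cent he⟩ ∈ zpowers C'.d := fun he => by
    rw [hd]; exact psi_mem ψ he
  have hψz : ψ ⟨C.z, C.D_cent C.z_mem⟩ = 1 := C'.faith _ fun x => Subtype.ext (by rw [hψ]; exact x.2)
  have hcomm : ∀ {e : centralizer ({C.z} : Set G)}, ψ e = 1 → C.u * e = e * C.u := fun he =>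
    C.ker_cent ψ hs hψ C' hα he ⟨_, C.u_cent⟩
  have hc1 : ¬ C.u * c = c * C.u := fun h => C.z_ne (hzc.trans (C.phi_eq_one.2 h))
  have hc2 : ψ ⟨c, C.D_cent hc⟩ * ψ ⟨c, C.D_cent hc⟩ = 1 := by
    have h1 := S.inv_all (inv_mem (hD hc))
    rw [inv_inv] at h1
    nth_rw 1 [← h1]
    rw [hu, ← map_inv, ← map_mul, ← map_mul, ← map_mul, ← hψz]
    congr 1
    exact Subtype.ext hzc.symm
  have hN : orderOf C.j = orderOf C'.d := by
    refine orderOf_eq_orderOf_iff.2 fun n => ?_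
    have he : C.d ^ n ∈ zpowers C.d := npow_mem_zpowers _ _
    have h1 : C'.d ^ n = ψ ⟨_, C.D_cent he⟩ := by rw [hd, ← map_pow]; rfl
    rw [← zpow_natCast C.j, ← C.phi, zpow_natCast, C.phi_eq_one, h1]
    refine ⟨fun h => ?_, fun h => hcomm h⟩
    by_contra hne
    have h2 : ψ ⟨_, C.D_cent he⟩ * ψ ⟨_, C.D_cent he⟩ = 1 := by
      rw [← eq_inv_iff_mul_eq_one, ← S.inv_all (hD he), hu, ← map_mul, ← map_mul]
      congr 1
      refine Subtype.ext ?_
      change C.d ^ n = C.u * C.d ^ n * C.u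
      rw [h, mul_assoc, C.u_sq, mul_one]
    have h3 := cyc_inv (hD hc) (hD he) hc2 h2 (fun h => hc1 (hcomm h)) hne
    have h4 := hcomm (e := ⟨c, C.D_cent hc⟩ * (⟨_, C.D_cent he⟩)⁻¹) (by
      rw [map_mul, map_inv, h3, mul_inv_cancel])
    have h5 : Commute C.u (c * (C.d ^ n)⁻¹ * C.d ^ n) := Commute.mul_right h4 h
    rw [inv_mul_cancel_right] at h5
    exact hc1 h5
  have h1 := C.count
  have h2 : orderOf C'.m + 1 = C.f := C'.order_m
  rw [C.N_eq, hN, ← C.order_m, ← h2, ← S.od] at h1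
  refine C.not_cube S.prime ?_ hm (fun h => C'.m_ne_one ?_)
    (mem_centralizer_singleton_iff.1 m.2)
  · rw [← S.od]
    simp only [Nat.add_sub_cancel] at h1
    nlinarith
  · rw [hm', show m = 1 from Subtype.ext h, map_one]

include hs hψ in
theorem step_b (C' : Cfg X {x : Ω // C.z • x = x}) (S : C'.Sharp) (hα : C'.α.1 = C.α)
    {a : centralizer ({C.z} : Set G)} (ha : (a : G) ∈ zpowers C.a) (ha' : C'.a = ψ a)
    (hu : C'.u = ψ ⟨_, C.u_cent⟩) (hd : C'.d = ψ ⟨_, C.D_cent (mem_zpowers _)⟩) :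
    C.z ∈ zpowers C.j := by
  have : Finite X := Finite.of_surjective ψ hs
  have := C.fin
  by_contra hz
  have hψz : ψ ⟨C.z, C.D_cent C.z_mem⟩ = 1 := C'.faith _ fun x => Subtype.ext (by rw [hψ]; exact x.2)
  have hodd : Odd (orderOf C.j) := by
    by_contra h
    obtain ⟨r, hr⟩ := Nat.not_odd_iff_even.1 h
    have hp := orderOf_pos C.j
    refine hz (C.eq_z (w := C.j ^ r) (pow_mem C.j_mem r) (by rw [← pow_add, ← hr, pow_orderOf_eq_one])
      (pow_ne_one_of_lt_orderOf (by omega) (by omega)) ▸ npow_mem_zpowers _ _)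
  set s := C.d ^ orderOf C.j with hsd
  set e := orderOf C.d / 2 with he
  have hus : C.u * s = s * C.u := by
    rw [← C.phi_eq_one, hsd, ← zpow_natCast, C.phi, zpow_natCast, pow_orderOf_eq_one]
  have hse : s ^ e = C.z := by
    rw [hsd, ← pow_mul, mul_comm, pow_mul]
    obtain ⟨r, hr⟩ := hodd
    change C.z ^ _ = _
    rw [hr, pow_succ, pow_mul, pow_two, C.z_sq, one_pow, one_mul]
  have huzα : (C.u * C.z) • C.α = C.β := by rw [mul_smul, C.D_α C.z_mem]; rfl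
  have huz : C.IsZ (C.u * C.z) := by
    obtain ⟨w, hw, h⟩ := C.exists_swap
    have h1 := cyc_inv_mod (zpowers C.j) C.z_mem (C.swap_mem hw.1 h) (by rw [C.z_sq]; exact one_mem _)
      (C.swap_sq hw.1 h) hz (C.not_mem_J hw)
    obtain ⟨c, hc, h2⟩ := C.exists_phi h1
    have h3 := C.mul_phi hw.1 h hc
    rw [← h2, comm_of_zpowers C.z_mem (inv_mem (C.swap_mem hw.1 h)), mul_inv_rev, C.u_inv] at h3
    simp only [mul_assoc, mul_inv_cancel_left] at h3
    rw [h3]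
    simpa [mul_assoc] using hw.conj c⁻¹
  obtain ⟨g, hg⟩ := huz.exists_conj
  have ht : g⁻¹ * s * g⁻¹⁻¹ ∈ centralizer ({C.z} : Set G) := by
    have h1 : Commute s (C.u * C.z) :=
      Commute.mul_right hus.symm (comm_of_zpowers (npow_mem_zpowers _ _) C.z_mem)
    rw [hg] at h1
    refine mem_centralizer_singleton_iff.2 ?_
    calc _ = g⁻¹ * (s * (g * C.z * g⁻¹)) * g := by group
      _ = _ := by rw [h1.eq]; group
  have hte : (g⁻¹ * s * g⁻¹⁻¹) ^ e = g⁻¹ * C.z * g⁻¹⁻¹ := by rw [conj_pow, hse]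
  have hw := C.isZ_z.conj g⁻¹
  have hwH : g⁻¹ * C.z * g⁻¹⁻¹ ∈ centralizer ({C.z} : Set G) := hte ▸ pow_mem ht e
  generalize g⁻¹ * s * g⁻¹⁻¹ = t at ht hte
  have hwz : g⁻¹ * C.z * g⁻¹⁻¹ ≠ C.z := fun h => by
    have : g * C.z * g⁻¹ = C.z := by nth_rw 1 [← h]; group
    rw [this] at hg
    exact C.u_ne (mul_eq_right.1 hg)
  generalize g⁻¹ * C.z * g⁻¹⁻¹ = w at hte hw hwH hwz
  have hzα := C.D_α C.z_mem
  have hwα : w • C.α ≠ C.α := fun h => by
    obtain ⟨y, hy, hne, hwy⟩ := exists_fixed2 (fun x : Ω => C.z • x = x) (fun x => w • x)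
      (fun x hx => C.cent_fix hwH hx) (fun x => by rw [← mul_smul, hw.1, one_smul]) C'.even hzα h
    exact hwz (C.uniq hne hw.1 hw.2.1 hwy h C.z_sq C.z_ne hy hzα)
  obtain ⟨k, hk, hkw⟩ := C.m_tr (w • C.α) C.β hwα C.β_ne
  have hkH := C.mem_cent (g := k) hwα (C.cent_fix hwH hzα) hzα (by rw [hkw, C.D_β C.z_mem])
    (by rw [C.m_α hk, hzα])
  obtain ⟨x, hx, h1⟩ := C.swap_conj huz huzα (hw.conj k) (by
    rw [mul_smul, mul_smul, C.m_α (inv_mem hk), hkw])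
  obtain ⟨c, hc, rfl⟩ := C.exists_phi hx
  rw [C.mul_phi huz.1 huzα hc] at h1
  let t' : centralizer ({C.z} : Set G) := ⟨c * k * t * (c * k)⁻¹,
    mul_mem (mul_mem (mul_mem (C.D_cent hc) hkH) ht) (inv_mem (mul_mem (C.D_cent hc) hkH))⟩
  have ht' : (t' : G) ^ e = C.u * C.z := by
    change (c * k * t * (c * k)⁻¹) ^ e = _
    rw [conj_pow, hte]
    calc _ = c * (k * w * k⁻¹) * c⁻¹ := by group
      _ = _ := by rw [h1]; group
  have h2 : ψ t' ^ e = C'.u := by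
    rw [hu, ← map_pow, ← mul_one (ψ ⟨C.u, _⟩), ← hψz, ← map_mul]
    congr 1
    exact Subtype.ext ht'
  obtain ⟨i, hi⟩ := mem_powers_iff_mem_zpowers.2 C'.u_mem
  have h3 : Commute (ψ t') C'.a := S.comm _ _ e i (h2.trans hi.symm) (h2 ▸ C'.u_ne)
  obtain ⟨b, hb, hbα⟩ := C'.a_tr C'.α (ψ t' • C'.α)
  obtain ⟨l, rfl⟩ := mem_zpowers_iff.1 hb
  have h4 : ψ ((a ^ l)⁻¹ * t') = 1 := by
    rw [map_mul, map_inv, map_zpow, ← ha']
    refine C'.faith _ fun y => ?_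
    obtain ⟨b, hb, rfl⟩ := C'.a_tr C'.α y
    obtain ⟨n, rfl⟩ := mem_zpowers_iff.1 hb
    have : Commute ((C'.a ^ l)⁻¹ * ψ t') (C'.a ^ n) :=
      Commute.mul_left ((Commute.refl _).zpow_zpow l n).inv_left (h3.zpow_right n)
    rw [← mul_smul, this.eq, mul_smul, mul_smul, ← hbα, inv_smul_smul]
  have h5 : Commute ((a : G) ^ l) (((a : G) ^ l)⁻¹ * t') := C.ker_cent ψ hs hψ C' hα h4 (a ^ l)
  have h6 : ((a : G) ^ l)⁻¹ * t' ∈ zpowers C.d :=
    C.mem_D (C.ker_fix ψ hψ h4 hzα) (C.ker_fix ψ hψ h4 (C.D_β C.z_mem))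
  obtain ⟨n, hn⟩ := mem_powers_iff_mem_zpowers.2 h6
  have h7 : C'.d ^ n = 1 := by
    rw [hd, ← map_pow, ← h4]
    congr 1
    exact Subtype.ext hn
  obtain ⟨r, hr⟩ := (even_iff_two_dvd.1 C'.even_d).trans (orderOf_dvd_of_pow_eq_one h7)
  have h8 : (((a : G) ^ l)⁻¹ * t') ^ e = 1 := by
    rw [← hn]
    change (C.d ^ n) ^ e = 1
    rw [← pow_mul, hr, mul_right_comm, C.two_half, pow_mul, pow_orderOf_eq_one, one_pow]
  have h9 := h5.mul_pow e
  rw [mul_inv_cancel_left, h8, mul_one, ht'] at h9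
  have h10 : C.u * (C.u * C.z) ∈ zpowers C.a :=
    mul_mem C.u_mem (h9 ▸ pow_mem (zpow_mem ha l) e)
  rw [C.u_cancel] at h10
  exact C.z_ne (C.a_free h10 hzα)

end step

end Cfg

theorem sharp_aux (n : ℕ) : ∀ (G Ω : Type u) [Group G] [Finite G] [MulAction G Ω] (C : Cfg G Ω),
    Nat.card Ω = n → C.Sharp := by
  induction n using Nat.strong_induction_on with
  | _ n ih =>
    intro G Ω _ _ _ C hn
    rcases C.two_le_f.eq_or_lt with h | h
    · exact C.sharp_of_two h.symm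
    obtain ⟨X, _, _, ψ, hs, hψ, hf⟩ := exists_restrict (centralizer ({C.z} : Set G))
      (fun x : Ω => C.z • x = x) fun h hh x hx => C.cent_fix hh hx
    have : Finite X := Finite.of_surjective ψ hs
    obtain ⟨C', a, m, ha, hm, ha', hm', hu, hd, hα⟩ := C.exists_cfg ψ hs hψ hf h
    have S := ih _ (hn ▸ C.f_lt) X _ C' rfl
    exact (C.step_a ψ hs hψ C' S hα hm hm' hu hd (C.step_b ψ hs hψ C' S hα ha ha' hu hd)).elim

theorem Cfg.sharp {G Ω : Type u} [Group G] [Finite G] [MulAction G Ω] (C : Cfg G Ω) : C.Sharp :=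
  sharp_aux _ G Ω C rfl

end H46.CZ
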